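import Mathlib
import Cfsg.Agent.Lib.Classical.Orth.Simple

/-!
Any two Sylow 2-subgroups of the orthogonal group of a quadratic form of plus type over the field with two elements
intersect nontrivially: every Sylow subgroup contains the pointwise stabiliser of a totally singular subspace
of dimension `m - 1`, which is a 2-group.
-/

set_option autoImplicit false
set_option linter.unusedSectionVars false
set_option linter.unusedSimpArgs false
set_option linter.unusedVariables false

namespace Cfsg.Agent.Lib.Classical.Orth.SylowInter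

open Matrix QuadraticMap Module
open scoped Pointwise
open Cfsg.Agent.Lib.Classical.Orth.Basic
open Cfsg.Agent.Lib.Classical.Orth.CartanDieudonne
open Cfsg.Agent.Lib.Classical.Orth.Classes
open Cfsg.Agent.Lib.Classical.Orth.Siegel
open Cfsg.Agent.Lib.Classical.Orth.Simple
open Cfsg.Agent.Lib.Classical.Witt.Hyp
open Cfsg.Agent.Lib.Classical.Witt.TS

variable {ι : Type} [Fintype ι] [DecidableEq ι] {F : Type*} [Field F] [Fintype F]
variable {Q : QuadraticForm F (ι → F)}

set_option quotPrecheck false in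
local notation "𝔣" => polar (⇑Q)

/-- The pointwise stabiliser of a subspace. -/
def pointFix (U : Submodule F (ι → F)) : Subgroup ↥(Cfsg.isometryGroup F (⇑Q)) where
  carrier := {g | ∀ u ∈ U, act g u = u}
  mul_mem' := by
    intro a b ha hb u hu
    rw [act_mul, hb u hu, ha u hu]
  one_mem' := fun u _ => act_one u
  inv_mem' := by
    intro a ha u hu
    conv_lhs => rw [← ha u hu]
    exact act_inv_act a u

theorem mem_pointFix {U : Submodule F (ι → F)} {g : ↥(Cfsg.isometryGroup F (⇑Q))} :
    g ∈ pointFix U ↔ ∀ u ∈ U, act g u = u := Iff.rfl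

/-- Pointwise stabilisers of images are conjugates. -/
theorem conj_mem_pointFix {U : Submodule F (ι → F)} {w h : ↥(Cfsg.isometryGroup F (⇑Q))}
    (hw : w ∈ pointFix (gMap h U)) : h⁻¹ * w * h ∈ pointFix U := by
  intro u hu
  rw [act_mul, act_mul, hw (act h u) (mem_gMap.2 ⟨u, hu, rfl⟩), act_inv_act]

/-! ### A nontrivial element fixing two small subspaces -/

theorem exists_fix_two (hQ : (polarBilin Q).Nondegenerate) {U U' : Submodule F (ι → F)} {k : ℕ}
    (hU : finrank F U ≤ k) (hU' : finrank F U' ≤ k) (hk : 2 * k + 2 ≤ Fintype.card ι) :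
    ∃ w : ↥(Cfsg.isometryGroup F (⇑Q)), w ≠ 1 ∧ w ∈ pointFix U ∧ w ∈ pointFix U' := by
  classical
  set B : LinearMap.BilinForm F (ι → F) := polarBilin Q with hB
  have hBnd : B.Nondegenerate := hQ
  set X : Submodule F (ι → F) := B.orthogonal (U ⊔ U') with hX
  have hXd : 2 ≤ finrank F X := by
    have h6 := LinearMap.BilinForm.finrank_orthogonal hBnd (U ⊔ U')
    rw [Module.finrank_fintype_fun_eq_card, ← hX] at h6
    have h7 := Submodule.finrank_add_le_finrank_add_finrank U U'
    omega
  have hXU : ∀ x ∈ X, ∀ u ∈ U, 𝔣 x u = 0 := by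
    intro x hx u hu
    have h1 : B u x = 0 := hx u (Submodule.mem_sup_left hu)
    rw [hB, polarBilin_apply_apply] at h1
    rw [polar_comm]
    exact h1
  have hXU' : ∀ x ∈ X, ∀ u ∈ U', 𝔣 x u = 0 := by
    intro x hx u hu
    have h1 : B u x = 0 := hx u (Submodule.mem_sup_right hu)
    rw [hB, polarBilin_apply_apply] at h1
    rw [polar_comm]
    exact h1
  by_cases hex : ∃ v ∈ X, Q v ≠ 0
  · obtain ⟨v, hv, hQv⟩ := hex
    have hv0 : v ≠ 0 := by
      rintro rfl
      simp at hQv
    refine ⟨reflectionIso Q v hQv, ?_, ?_, ?_⟩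
    · intro h
      obtain ⟨y, hy⟩ : ∃ y, 𝔣 v y ≠ 0 := by
        by_contra hcon
        push Not at hcon
        exact hv0 (eq_zero_of_polar hQ hcon)
      have h1 := reflectionIso_act v hQv y
      rw [h, act_one] at h1
      have h3 : ((Q v)⁻¹ * 𝔣 v y) • v = 0 := by
        have h4 : y - ((Q v)⁻¹ * 𝔣 v y) • v = y := h1.symm
        exact sub_eq_self.1 h4
      rcases smul_eq_zero.1 h3 with h5 | h5
      · exact (mul_ne_zero (inv_ne_zero hQv) hy) h5
      · exact hv0 h5
    · intro u hu
      rw [reflectionIso_act, hXU v hv u hu]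
      simp
    · intro u hu
      rw [reflectionIso_act, hXU' v hv u hu]
      simp
  · push Not at hex
    -- two independent vectors of `X`
    obtain ⟨a, haX, ha0⟩ : ∃ a ∈ X, a ≠ 0 := by
      by_contra hcon
      push Not at hcon
      have : X = ⊥ := by
        rw [eq_bot_iff]
        intro y hy
        exact hcon y hy
      rw [this, finrank_bot] at hXd
      omega
    obtain ⟨b, hbX, hbn⟩ : ∃ b ∈ X, b ∉ Submodule.span F {a} := by
      by_contra hcon
      push Not at hcon
      have h1 : finrank F X ≤ finrank F ↥(Submodule.span F {a}) := Submodule.finrank_mono hcon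
      rw [finrank_span_singleton ha0] at h1
      omega
    have hQa := hex a haX
    have hQb := hex b hbX
    have hab : 𝔣 a b = 0 := by
      have h1 := hex (a + b) (X.add_mem haX hbX)
      rw [Q_add, hQa, hQb] at h1
      simpa using h1
    refine ⟨eichlerIso hQa hab, ?_, ?_, ?_⟩
    · intro h
      obtain ⟨y, hy⟩ : ∃ y, 𝔣 a y ≠ 0 := by
        by_contra hcon
        push Not at hcon
        exact ha0 (eq_zero_of_polar hQ hcon)
      have h1 := act_eichlerIso hQa hab y
      rw [h, act_one, hQb, zero_mul, zero_smul, sub_zero] at h1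
      apply hbn
      have h3 : 𝔣 a y • b = 𝔣 b y • a := by
        have h4 : y + 𝔣 a y • b - 𝔣 b y • a - y = 0 := by
          rw [← h1, sub_self]
        have h5 : y + 𝔣 a y • b - 𝔣 b y • a - y = 𝔣 a y • b - 𝔣 b y • a := by abel
        rw [h5] at h4
        exact sub_eq_zero.1 h4
      rw [Submodule.mem_span_singleton]
      refine ⟨(𝔣 a y)⁻¹ * 𝔣 b y, ?_⟩
      rw [mul_smul, ← h3, smul_smul, inv_mul_cancel₀ hy, one_smul]
    · intro u hu
      rw [act_eichlerIso, hXU a haX u hu, hXU b hbX u hu]
      simp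
    · intro u hu
      rw [act_eichlerIso, hXU' a haX u hu, hXU' b hbX u hu]
      simp

/-! ### The pointwise stabiliser is a 2-group -/

section TwoGroup

variable [CharP F 2] (hF2 : Fintype.card F = 2)

omit [Fintype ι] [DecidableEq ι] [CharP F 2] in
theorem eq_zero_or_one (hF2 : Fintype.card F = 2) (a : F) : a = 0 ∨ a = 1 := by
  classical
  by_contra hcon
  push Not at hcon
  have h1 : ({0, 1, a} : Finset F).card = 3 := by
    rw [Finset.card_eq_three]
    exact ⟨0, 1, a, zero_ne_one, hcon.1.symm, hcon.2.symm, rfl⟩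
  have h2 := Finset.card_le_univ ({0, 1, a} : Finset F)
  omega

include hF2 in
/-- The key step: the square of `g` fixes `p` modulo `U`. -/
theorem sq_step {U : Submodule F (ι → F)} (hTS : IsTS Q U) {g : ↥(Cfsg.isometryGroup F (⇑Q))}
    (hg : ∀ u ∈ U, act g u = u)
    {p q : ι → F} (hQp : Q p = 0) (hQq : Q q = 0) (hpq : 𝔣 p q = 1) (hUp : ∀ u ∈ U, 𝔣 u p = 0)
    (hUq : ∀ u ∈ U, 𝔣 u q = 0) (hpU : p ∉ U)
    (hdec : ∀ x, (∀ u ∈ U, 𝔣 u x = 0) → x - 𝔣 q x • p - 𝔣 p x • q ∈ U) :
    act g (act g p) - p ∈ U := by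
  have hWg : ∀ x, (∀ u ∈ U, 𝔣 u x = 0) → ∀ u ∈ U, 𝔣 u (act g x) = 0 := by
    intro x hx u hu
    rw [← hg u hu, polar_act]
    exact hx u hu
  have hqp : 𝔣 q p = 1 := by rw [polar_comm]; exact hpq
  have hform : ∀ u ∈ U, ∀ r s : F, Q (u + r • p + s • q) = r * s := by
    intro u hu r s
    rw [Q_add, Q_add, Q_smul, Q_smul, hQp, hQq, polar_add_left, polar_smul_right', polar_smul_right',
      polar_smul_left', polar_smul_right', hpq, hUq u hu, hUp u hu, hTS u hu]
    ring
  -- the product of the coordinates of a singular vector vanishes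
  have hprod : ∀ x, (∀ u ∈ U, 𝔣 u x = 0) → Q x = 0 → 𝔣 q x * 𝔣 p x = 0 := by
    intro x hx hQx
    have h1 := hdec x hx
    set u := x - 𝔣 q x • p - 𝔣 p x • q with hu
    have hxe : x = u + 𝔣 q x • p + 𝔣 p x • q := by
      rw [hu]
      abel
    have h3 := hform u h1 (𝔣 q x) (𝔣 p x)
    rw [← hxe, hQx] at h3
    exact h3.symm
  have hgp := hdec _ (hWg p hUp)
  have hgq := hdec _ (hWg q hUq)
  have hab := hprod _ (hWg p hUp) (by rw [Q_act, hQp])
  have hcd := hprod _ (hWg q hUq) (by rw [Q_act, hQq])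
  rcases eq_zero_or_one hF2 (𝔣 q (act g p)) with ha | ha
  · rcases eq_zero_or_one hF2 (𝔣 p (act g p)) with hb | hb
    · exfalso
      rw [ha, hb, zero_smul, zero_smul, sub_zero, sub_zero] at hgp
      have h1 := hg _ hgp
      have h3 : act g p = p := by
        have h4 := congrArg (act g⁻¹) h1
        rwa [act_inv_act, act_inv_act] at h4
      apply hpU
      rw [← h3]
      exact hgp
    · rw [ha, hb, zero_smul, one_smul, sub_zero] at hgp
      -- `g p ≡ q`
      have hq1 : 𝔣 q (act g q) = 1 := by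
        have h1 := polar_act g p q
        rw [hpq] at h1
        have h3 : act g p = (act g p - q) + q := by abel
        rw [h3, polar_add_left, hWg q hUq _ hgp, zero_add] at h1
        exact h1
      rw [hq1, one_mul] at hcd
      rw [hq1, hcd, one_smul, zero_smul, sub_zero] at hgq
      have h5 : act g (act g p) - p = (act g (act g p - q)) + (act g q - p) := by
        rw [act_sub]
        abel
      rw [h5, hg _ hgp]
      exact U.add_mem hgp hgq
  · rw [ha, one_mul] at hab
    rw [ha, hab, one_smul, zero_smul, sub_zero] at hgp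
    have h5 : act g (act g p) - p = (act g (act g p - p)) + (act g p - p) := by
      rw [act_sub]
      abel
    rw [h5, hg _ hgp]
    exact U.add_mem hgp hgp

include hF2 in
/-- Elements fixing `U` pointwise have order dividing eight. -/
theorem pow_eight (hQ : (polarBilin Q).Nondegenerate) {L U : Submodule F (ι → F)} {e : ι → F}
    (hL : IsTS Q L) (hdim : 2 * finrank F L = Fintype.card ι) (heL : e ∈ L) (heU : e ∉ U)
    (hUL : U ≤ L) (hsup : L ≤ U ⊔ Submodule.span F {e})
    {g : ↥(Cfsg.isometryGroup F (⇑Q))} (hg : ∀ u ∈ U, act g u = u) : g ^ 8 = 1 := by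
  classical
  have hTS : IsTS Q U := hL.mono hUL
  have hQe : Q e = 0 := hL e heL
  have hUe : ∀ u ∈ U, 𝔣 u e = 0 := fun u hu => hL.polar_eq_zero (hUL hu) heL
  obtain ⟨f, hQf, hef, hUf⟩ := exists_partner_orth (polarNondeg_of_nondeg Q hQ) heU hQe hUe
  have hfe : 𝔣 f e = 1 := by rw [polar_comm]; exact hef
  have hfU : f ∉ U := by
    intro h
    have := hUe f h
    rw [hfe] at this
    exact one_ne_zero this
  have hee : 𝔣 e e = 0 := by rw [polar_self_eq, hQe, mul_zero]
  have hff : 𝔣 f f = 0 := by rw [polar_self_eq, hQf, mul_zero]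
  set B : LinearMap.BilinForm F (ι → F) := polarBilin Q with hB
  have hBnd : B.Nondegenerate := hQ
  -- `L` is its own orthogonal
  have hLorth : B.orthogonal L = L := by
    symm
    apply Submodule.eq_of_le_of_finrank_eq
    · intro x hx
      refine LinearMap.BilinForm.mem_orthogonal_iff.2 (fun w hw => ?_)
      rw [hB, polarBilin_apply_apply]
      exact hL.polar_eq_zero hw hx
    · have h6 := LinearMap.BilinForm.finrank_orthogonal hBnd L
      rw [Module.finrank_fintype_fun_eq_card] at h6
      omega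
  -- decomposition of `U^⊥`
  have hdec : ∀ x, (∀ u ∈ U, 𝔣 u x = 0) → x - 𝔣 f x • e - 𝔣 e x • f ∈ U := by
    intro x hx
    set y := x - 𝔣 f x • e - 𝔣 e x • f with hy
    have hyU : ∀ u ∈ U, 𝔣 u y = 0 := by
      intro u hu
      rw [hy, polar_sub_right, polar_sub_right, polar_smul_right', polar_smul_right', hx u hu, hUe u hu, hUf u hu]
      ring
    have hye : 𝔣 e y = 0 := by
      rw [hy, polar_sub_right, polar_sub_right, polar_smul_right', polar_smul_right', hee, hef]
      ring
    have hyf : 𝔣 f y = 0 := by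
      rw [hy, polar_sub_right, polar_sub_right, polar_smul_right', polar_smul_right', hfe, hff]
      ring
    have hyL : y ∈ L := by
      rw [← hLorth]
      refine LinearMap.BilinForm.mem_orthogonal_iff.2 (fun w hw => ?_)
      rw [hB, polarBilin_apply_apply]
      obtain ⟨u, hu, v, hv, rfl⟩ := Submodule.mem_sup.1 (hsup hw)
      obtain ⟨t, rfl⟩ := Submodule.mem_span_singleton.1 hv
      rw [polar_add_left, polar_smul_left', hyU u hu, hye, mul_zero, zero_add]
    obtain ⟨u, hu, v, hv, huv⟩ := Submodule.mem_sup.1 (hsup hyL)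
    obtain ⟨t, rfl⟩ := Submodule.mem_span_singleton.1 hv
    have h1 : 𝔣 (u + t • e) f = 0 := by
      rw [huv, polar_comm]
      exact hyf
    rw [polar_add_left, polar_smul_left', hUf u hu, hef, mul_one, zero_add] at h1
    rw [← huv, h1, zero_smul, add_zero]
    exact hu
  have hdec' : ∀ x, (∀ u ∈ U, 𝔣 u x = 0) → x - 𝔣 e x • f - 𝔣 f x • e ∈ U := by
    intro x hx
    have h1 := hdec x hx
    have h3 : x - 𝔣 e x • f - 𝔣 f x • e = x - 𝔣 f x • e - 𝔣 e x • f := by abel
    rw [h3]
    exact h1
  have h1 := sq_step hF2 hTS hg hQe hQf hef hUe hUf heU hdec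
  have h3 := sq_step hF2 hTS hg hQf hQe hfe hUf hUe hfU hdec'
  -- the square of `g`
  set A := g * g with hA
  have hAU : ∀ u ∈ U, act A u = u := by
    intro u hu
    rw [hA, act_mul, hg u hu, hg u hu]
  have hAW : ∀ x, (∀ u ∈ U, 𝔣 u x = 0) → act A x - x ∈ U := by
    intro x hx
    have h4 := hdec x hx
    set u := x - 𝔣 f x • e - 𝔣 e x • f with hu
    have hxe : x = u + 𝔣 f x • e + 𝔣 e x • f := by
      rw [hu]
      abel
    have h5 : act A x - x = 𝔣 f x • (act g (act g e) - e) + 𝔣 e x • (act g (act g f) - f) := by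
      conv_lhs => rw [hxe]
      rw [hA, act_mul, act_add, act_add, act_add, act_add, act_smul, act_smul, act_smul, act_smul, hg u h4, hg u h4]
      simp only [smul_sub]
      abel
    rw [h5]
    exact U.add_mem (U.smul_mem _ h1) (U.smul_mem _ h3)
  have hAany : ∀ y, ∀ u ∈ U, 𝔣 u (act A y - y) = 0 := by
    intro y u hu
    rw [polar_sub_right]
    conv_lhs => rw [← hAU u hu]
    rw [polar_act]
    conv_lhs => rw [hAU u hu]
    rw [sub_self]
  have h2F : (2 : F) = 0 := CharTwo.two_eq_zero
  -- `A² - 1` has image in `U`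
  have hA2 : ∀ y, act (A * A) y - y ∈ U := by
    intro y
    have h4 := hAW _ (hAany y)
    have h5 : act (A * A) y - y = (act A (act A y - y) - (act A y - y)) + (2 : F) • (act A y - y) := by
      rw [act_mul, act_sub, two_smul]
      abel
    rw [h5, h2F, zero_smul, add_zero]
    exact h4
  have hA4 : ∀ y, act (A * A * (A * A)) y = y := by
    intro y
    have h4 := hA2 y
    have h5 : act (A * A) (act (A * A) y - y) = act (A * A) y - y := by
      rw [act_mul, hAU _ h4, hAU _ h4]
    have h6 : act (A * A * (A * A)) y - y = (2 : F) • (act (A * A) y - y) := by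
      rw [act_mul (A * A) (A * A)]
      have h7 : act (A * A) (act (A * A) y) = (act (A * A) (act (A * A) y - y)) + act (A * A) y := by
        rw [act_sub]
        abel
      rw [h7, h5, two_smul]
      abel
    rw [h2F, zero_smul] at h6
    exact sub_eq_zero.1 h6
  have h8 : g ^ 8 = A * A * (A * A) := by
    rw [hA]
    simp only [pow_succ, pow_zero, one_mul, mul_assoc]
  rw [h8]
  apply ext_act
  intro x
  rw [hA4, act_one]

end TwoGroup

/-- **Two Sylow 2-subgroups intersect nontrivially**, when the form has a Lagrangian over the field with two elements. -/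
theorem sylow_inter_ne_bot (hQ : (polarBilin Q).Nondegenerate) (hF2 : Fintype.card F = 2) {L : Submodule F (ι → F)}
    (hL : IsTS Q L) (hdim : 2 * finrank F L = Fintype.card ι) (hne : L ≠ ⊥)
    (H : Sylow 2 ↥(Cfsg.isometryGroup F (⇑Q))) (x : ↥(Cfsg.isometryGroup F (⇑Q))) :
    (H : Subgroup ↥(Cfsg.isometryGroup F (⇑Q))) ⊓ MulAut.conj x • (H : Subgroup ↥(Cfsg.isometryGroup F (⇑Q))) ≠ ⊥ := by
  classical
  have h20 : (2 : F) = 0 := by
    rcases eq_zero_or_one hF2 (2 : F) with h | h
    · exact h
    · exfalso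
      have h1 : (1 : F) = 0 := by linear_combination h
      exact one_ne_zero h1
  have : CharP F 2 := CharTwo.of_one_ne_zero_of_two_eq_zero one_ne_zero h20
  obtain ⟨e, heL, he0⟩ : ∃ e ∈ L, e ≠ 0 := by
    by_contra hcon
    push Not at hcon
    exact hne (eq_bot_iff.2 (fun y hy => hcon y hy))
  obtain ⟨i, hi⟩ : ∃ i, e i ≠ 0 := by
    by_contra hcon
    push Not at hcon
    exact he0 (funext hcon)
  set φ : (ι → F) →ₗ[F] F := LinearMap.proj i with hφ
  set U : Submodule F (ι → F) := L ⊓ LinearMap.ker φ with hU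
  have heU : e ∉ U := fun h => hi (LinearMap.mem_ker.1 h.2)
  have hUL : U ≤ L := inf_le_left
  have hsup : L ≤ U ⊔ Submodule.span F {e} := by
    intro y hy
    have h1 : y = (y - (y i / e i) • e) + (y i / e i) • e := by abel
    rw [h1]
    refine Submodule.add_mem _ (Submodule.mem_sup_left (Submodule.mem_inf.2 ⟨L.sub_mem hy (L.smul_mem _ heL), ?_⟩))
      (Submodule.mem_sup_right (Submodule.smul_mem _ _ (Submodule.mem_span_singleton_self e)))
    rw [LinearMap.mem_ker]
    show (y - (y i / e i) • e) i = 0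
    simp only [Pi.sub_apply, Pi.smul_apply, smul_eq_mul]
    field_simp
    ring
  have hC : IsPGroup 2 ↥(pointFix (Q := Q) U) := by
    rintro ⟨g, hg⟩
    refine ⟨3, Subtype.ext ?_⟩
    exact pow_eight hF2 hQ hL hdim heL heU hUL hsup hg
  obtain ⟨P, hP⟩ := hC.exists_le_sylow
  obtain ⟨g, rfl⟩ := MulAction.exists_smul_eq ↥(Cfsg.isometryGroup F (⇑Q)) P H
  have hlt : finrank F U + 1 ≤ finrank F L := by
    have h1 : U < L := lt_of_le_of_ne hUL (fun h => heU (h ▸ heL))
    exact Submodule.finrank_lt_finrank_of_lt h1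
  obtain ⟨w, hw1, hw2, hw3⟩ := exists_fix_two hQ (U := gMap g U) (U' := gMap (x * g) U) (k := finrank F U)
    (by rw [finrank_gMap]) (by rw [finrank_gMap]) (by omega)
  intro hbot
  apply hw1
  have hmem : w ∈ ((g • P : Sylow 2 ↥(Cfsg.isometryGroup F (⇑Q))) : Subgroup ↥(Cfsg.isometryGroup F (⇑Q))) ⊓
      MulAut.conj x • ((g • P : Sylow 2 ↥(Cfsg.isometryGroup F (⇑Q))) : Subgroup ↥(Cfsg.isometryGroup F (⇑Q))) := by
    refine Subgroup.mem_inf.2 ⟨?_, ?_⟩
    · rw [Sylow.coe_subgroup_smul, Subgroup.mem_pointwise_smul_iff_inv_smul_mem, MulAut.smul_def,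
        MulAut.conj_inv_apply]
      exact hP (conj_mem_pointFix hw2)
    · rw [Subgroup.mem_pointwise_smul_iff_inv_smul_mem, MulAut.smul_def,
        MulAut.conj_inv_apply, Sylow.coe_subgroup_smul, Subgroup.mem_pointwise_smul_iff_inv_smul_mem, MulAut.smul_def,
        MulAut.conj_inv_apply]
      have h1 := conj_mem_pointFix hw3
      have h3 : g⁻¹ * (x⁻¹ * w * x) * g = (x * g)⁻¹ * w * (x * g) := by group
      rw [h3]
      exact hP h1
  rw [hbot] at hmem
  exact Subgroup.mem_bot.1 hmem

end Cfsg.Agent.Lib.Classical.Orth.SylowInter
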